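import Mathlib
import Cfsg.Prelude.Def_PLocal
import Cfsg.Agent.Lib.Helper9.Cores
import Cfsg.Agent.Lib.Helper4.Card
import Cfsg.Agent.Lib.Helper4.Replace
import Cfsg.Agent.Lib.Helper4.Thompson
import Cfsg.Agent.S0028
import Cfsg.Agent.S1324

set_option autoImplicit false

/-!
Best offenders on an elementary abelian `p`-group `V` under a faithful group `H` whose
`p'`-core contains its centralizer (Kurzweil–Stellmacher 9.3).
-/

namespace Cfsg.Agent.Lib.Helper4.Offender

open Cfsg
open scoped commutatorElement Pointwise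

universe u

variable {G : Type u} [Group G]

/-- the `p'`-core of `H`, viewed in `G` -/
def Qc (p : ℕ) (H : Subgroup G) : Subgroup G := (pPrimeCore p ↥H).map H.subtype

theorem Qc_le (p : ℕ) (H : Subgroup G) : Qc p H ≤ H := by
  rintro _ ⟨q, -, rfl⟩
  exact q.2

theorem Qc_coprime [Finite G] (p : ℕ) (H : Subgroup G) : (Nat.card (Qc p H)).Coprime p := by
  unfold Qc
  rw [Subgroup.card_map_of_injective H.subtype_injective]
  exact Cfsg.Agent.Lib.Helper9.pPrimeCore_coprime p ↥H

theorem Qc_conj (p : ℕ) (H : Subgroup G) {h q : G} (hh : h ∈ H) (hq : q ∈ Qc p H) :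
    h * q * h⁻¹ ∈ Qc p H := by
  obtain ⟨q', hq', rfl⟩ := hq
  haveI : (pPrimeCore p ↥H).Characteristic :=
    Cfsg.Agent.Lib.Helper9.pPrimeCore_characteristic p ↥H
  haveI hn : (pPrimeCore p ↥H).Normal := inferInstance
  exact ⟨⟨h, hh⟩ * q' * ⟨h, hh⟩⁻¹, hn.conj_mem q' hq' ⟨h, hh⟩, rfl⟩

theorem Qc_normal (p : ℕ) (H : Subgroup G) : H ≤ Subgroup.normalizer (Qc p H : Set G) := by
  intro h hh
  rw [Subgroup.mem_normalizer_iff]
  intro n
  constructor
  · intro hn
    exact Qc_conj p H hh hn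
  · intro hn
    have h1 := Qc_conj p H (H.inv_mem hh) hn
    have h2 : h⁻¹ * (h * n * h⁻¹) * h⁻¹⁻¹ = n := by group
    rw [h2] at h1
    exact h1

theorem mem_Qc_of_centralizes {p : ℕ} {H : Subgroup G}
    (hS1 : Subgroup.centralizer (pPrimeCore p ↥H : Set ↥H) ≤ pPrimeCore p ↥H) {a : G} (ha : a ∈ H)
    (hc : a ∈ Subgroup.centralizer (Qc p H : Set G)) : a ∈ Qc p H := by
  have h1 : (⟨a, ha⟩ : ↥H) ∈ Subgroup.centralizer (pPrimeCore p ↥H : Set ↥H) := by
    rw [Subgroup.mem_centralizer_iff]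
    intro q hq
    apply Subtype.ext
    exact (Subgroup.mem_centralizer_iff.mp hc) (q : G) ⟨q, hq, rfl⟩
  exact ⟨⟨a, ha⟩, hS1 h1, rfl⟩

theorem comm_inv {x y : G} (h : x * y = y * x) : x * y⁻¹ = y⁻¹ * x := by
  calc x * y⁻¹ = y⁻¹ * (y * x) * y⁻¹ := by group
    _ = y⁻¹ * (x * y) * y⁻¹ := by rw [h]
    _ = y⁻¹ * x := by group

theorem exists_ne_one {A : Subgroup G} (hA1 : A ≠ ⊥) : ∃ a ∈ A, a ≠ 1 := by
  by_contra hcon
  push_neg at hcon
  apply hA1
  rw [eq_bot_iff]
  intro a ha
  rw [Subgroup.mem_bot]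
  exact hcon a ha

theorem comm_ne_bot {V H A : Subgroup G} (hf : H ⊓ Subgroup.centralizer (V : Set G) = ⊥)
    (hAH : A ≤ H) (hA1 : A ≠ ⊥) : ⁅V, A⁆ ≠ ⊥ := by
  intro h
  apply hA1
  rw [Subgroup.commutator_eq_bot_iff_le_centralizer] at h
  rw [eq_bot_iff, ← hf]
  exact le_inf hAH (Subgroup.le_centralizer_iff.mp h)

theorem bo_comm {p : ℕ} {V H A : Subgroup G} (hf : H ⊓ Subgroup.centralizer (V : Set G) = ⊥)
    (hAH : A ≤ H) (hA : IsBestOffenderOn p V A) : ∀ a ∈ A, ∀ b ∈ A, a * b = b * a := by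
  intro a ha b hb
  have h1 : ⁅a, b⁆ ∈ H ⊓ Subgroup.centralizer (V : Set G) := by
    refine Subgroup.mem_inf.mpr ⟨?_, hA.2.1 (Subgroup.commutator_mem_commutator ha hb)⟩
    rw [commutatorElement_def]
    exact H.mul_mem (H.mul_mem (H.mul_mem (hAH ha) (hAH hb)) (H.inv_mem (hAH ha)))
      (H.inv_mem (hAH hb))
  rw [hf, Subgroup.mem_bot] at h1
  exact commutatorElement_eq_one_iff_mul_comm.mp h1

theorem bo_pow {p : ℕ} {V H A : Subgroup G} (hf : H ⊓ Subgroup.centralizer (V : Set G) = ⊥)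
    (hAH : A ≤ H) (hA : IsBestOffenderOn p V A) : ∀ a ∈ A, a ^ p = 1 := by
  intro a ha
  have h1 : a ^ p ∈ H ⊓ Subgroup.centralizer (V : Set G) :=
    Subgroup.mem_inf.mpr ⟨H.pow_mem (hAH ha) p, hA.2.2 a ha⟩
  rwa [hf, Subgroup.mem_bot] at h1

theorem bo_elab {p : ℕ} {V H A : Subgroup G} (hf : H ⊓ Subgroup.centralizer (V : Set G) = ⊥)
    (hAH : A ≤ H) (hA : IsBestOffenderOn p V A) : IsElementaryAbelian p A :=
  ⟨IsMulCommutative.of_setLike_mul_comm (fun _ h₁ _ h₂ => bo_comm hf hAH hA _ h₁ _ h₂),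
    bo_pow hf hAH hA⟩

theorem bo_mono {p : ℕ} {V A B : Subgroup G} (hA : IsBestOffenderOn p V A) (hBA : B ≤ A)
    (hcard : Nat.card B * Nat.card ↥(V ⊓ Subgroup.centralizer (B : Set G)) =
      Nat.card A * Nat.card ↥(V ⊓ Subgroup.centralizer (A : Set G))) :
    IsBestOffenderOn p V B := by
  refine ⟨?_, ?_, ?_⟩
  · intro B' hB'
    rw [hcard]
    exact hA.1 B' (hB'.trans hBA)
  · exact (Subgroup.commutator_mono hBA hBA).trans hA.2.1
  · intro b hb
    exact hA.2.2 b (hBA hb)

section fin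

variable [Finite G] {p : ℕ} [Fact p.Prime]

theorem p_mul_card_le {K L : Subgroup G} (hK : IsPGroup p K) (hLK : L < K) :
    p * Nat.card L ≤ Nat.card K := by
  obtain ⟨c, hc⟩ := Subgroup.card_dvd_of_le hLK.le
  have hc1 : c ≠ 1 := by
    intro h1
    rw [h1, mul_one] at hc
    exact hLK.ne (Subgroup.eq_of_le_of_card_ge hLK.le hc.le)
  obtain ⟨n, hn⟩ := IsPGroup.iff_card.mp hK
  have hcd : c ∣ p ^ n := by
    rw [← hn, hc]
    exact dvd_mul_left c _
  obtain ⟨m, -, rfl⟩ := (Nat.dvd_prime_pow (Fact.out : p.Prime)).mp hcd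
  have hm0 : m ≠ 0 := by
    rintro rfl
    exact hc1 (pow_zero p)
  have hp : p ≤ p ^ m := Nat.le_self_pow hm0 p
  rw [hc]
  calc p * Nat.card L ≤ p ^ m * Nat.card L := Nat.mul_le_mul_right _ hp
    _ = Nat.card L * p ^ m := mul_comm _ _

theorem card_eq_p_or {A : Subgroup G} (hAp : IsPGroup p A) (hA1 : A ≠ ⊥) :
    Nat.card A = p ∨ p ^ 2 ≤ Nat.card A := by
  obtain ⟨n, hn⟩ := IsPGroup.iff_card.mp hAp
  rcases Nat.lt_or_ge n 2 with h | h
  · left
    have hn0 : n ≠ 0 := by
      rintro rfl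
      rw [pow_zero] at hn
      exact hA1 (Subgroup.eq_bot_of_card_eq A hn)
    have h1 : n = 1 := by omega
    rw [hn, h1, pow_one]
  · right
    rw [hn]
    exact Nat.pow_le_pow_right (Fact.out : p.Prime).pos h

theorem card_of_relIndex {A B : Subgroup G} (hBA : B ≤ A) (hBr : B.relIndex A = p) :
    Nat.card A = p * Nat.card B := by
  have h := Cfsg.Agent.Lib.Helper4.Card.card_eq_relIndex_mul_card_inf B A
  rw [inf_eq_left.mpr hBA, hBr] at h
  exact h

theorem relIndex_eq_p {A B : Subgroup G} (hAp : IsPGroup p A) (hle : B.relIndex A ≤ p)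
    (hne : B.relIndex A ≠ 1) : B.relIndex A = p := by
  obtain ⟨n, hn⟩ := IsPGroup.iff_card.mp hAp
  have hd : B.relIndex A ∣ p ^ n := by
    rw [← hn]
    exact Subgroup.relIndex_dvd_card B A
  obtain ⟨m, -, hm⟩ := (Nat.dvd_prime_pow (Fact.out : p.Prime)).mp hd
  have hm0 : m ≠ 0 := by
    rintro rfl
    exact hne (by rw [hm, pow_zero])
  have hp : p ≤ p ^ m := Nat.le_self_pow hm0 p
  rw [hm] at hle ⊢
  exact le_antisymm hle hp

/-- a "good" hyperplane of a best offender is a best offender of the same quality -/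
theorem good_hyp {V H A B : Subgroup G} (hV : IsElementaryAbelian p V)
    (hHV : H ≤ Subgroup.normalizer (V : Set G)) (hf : H ⊓ Subgroup.centralizer (V : Set G) = ⊥)
    (hAH : A ≤ H) (hA : IsBestOffenderOn p V A) (hBA : B ≤ A) (hBr : B.relIndex A = p)
    (hgood : ¬ (Qc p H ⊓ Subgroup.centralizer (B : Set G) ≤ Subgroup.centralizer (A : Set G))) :
    IsBestOffenderOn p V B ∧
      Nat.card B * Nat.card ↥(V ⊓ Subgroup.centralizer (B : Set G)) =
        Nat.card A * Nat.card ↥(V ⊓ Subgroup.centralizer (A : Set G)) := by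
  classical
  have hAc := bo_comm hf hAH hA
  have hAp : IsPGroup p A := Cfsg.Agent.Lib.Helper4.Thompson.elab_isPGroup (bo_elab hf hAH hA)
  have hVp : IsPGroup p V := Cfsg.Agent.Lib.Helper4.Thompson.elab_isPGroup hV
  obtain ⟨X, hX⟩ : ∃ X : Subgroup G, X = Qc p H ⊓ Subgroup.centralizer (B : Set G) := ⟨_, rfl⟩
  obtain ⟨U, hU⟩ : ∃ U : Subgroup G, U = V ⊓ Subgroup.centralizer (B : Set G) := ⟨_, rfl⟩
  obtain ⟨X₀, hX₀⟩ : ∃ X₀ : Subgroup G, X₀ = X ⊓ Subgroup.centralizer (U : Set G) := ⟨_, rfl⟩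
  have hXQ : X ≤ Qc p H := by
    rw [hX]
    exact inf_le_left
  have hXH : X ≤ H := hXQ.trans (Qc_le p H)
  have hXB : X ≤ Subgroup.centralizer (B : Set G) := by
    rw [hX]
    exact inf_le_right
  have hX₀X : X₀ ≤ X := by
    rw [hX₀]
    exact inf_le_left
  have hX₀U : X₀ ≤ Subgroup.centralizer (U : Set G) := by
    rw [hX₀]
    exact inf_le_right
  have hUV : U ≤ V := by
    rw [hU]
    exact inf_le_left
  have hUB : U ≤ Subgroup.centralizer (B : Set G) := by
    rw [hU]
    exact inf_le_right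
  -- step 1: `X₀ = ⊥` by the P × Q lemma
  have hX₀bot : X₀ = ⊥ := by
    have h1 : X₀ ≤ Subgroup.centralizer (V : Set G) := by
      apply Cfsg.Agent.S0028.result p B X₀ V (hAp.to_le hBA) ?_ hVp ?_ ?_ ?_ ?_
      · exact Nat.Coprime.coprime_dvd_left (Subgroup.card_dvd_of_le (hX₀X.trans hXQ))
          (Qc_coprime p H)
      · exact Subgroup.le_centralizer_iff.mp (hX₀X.trans hXB)
      · exact hBA.trans (hAH.trans hHV)
      · exact hX₀X.trans (hXH.trans hHV)
      · rw [← hU]
        exact Subgroup.le_centralizer_iff.mp hX₀U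
    rw [eq_bot_iff, ← hf]
    exact le_inf (hX₀X.trans hXH) h1
  -- step 2: `A` does not centralize `U`
  have hAU : ¬ A ≤ Subgroup.centralizer (U : Set G) := by
    intro hAU
    apply hgood
    rw [← hX]
    intro x hx
    rw [Subgroup.mem_centralizer_iff]
    intro a ha
    have hxQ : x ∈ Qc p H := hXQ hx
    have hxB : x ∈ Subgroup.centralizer (B : Set G) := hXB hx
    have haH : a ∈ H := hAH ha
    have hxH : x ∈ H := hXH hx
    have h1 : a * x⁻¹ * a⁻¹ ∈ X := by
      rw [hX]
      refine Subgroup.mem_inf.mpr ⟨Qc_conj p H haH (Subgroup.inv_mem _ hxQ), ?_⟩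
      rw [Subgroup.mem_centralizer_iff]
      intro b hb
      have hb1 : b * a = a * b := hAc b (hBA hb) a ha
      have hb2 : b * x = x * b := (Subgroup.mem_centralizer_iff.mp hxB) b hb
      have hb3 : b * x⁻¹ = x⁻¹ * b := comm_inv hb2
      have hb4 : b * a⁻¹ = a⁻¹ * b := comm_inv hb1
      calc b * (a * x⁻¹ * a⁻¹) = (b * a) * x⁻¹ * a⁻¹ := by group
        _ = (a * b) * x⁻¹ * a⁻¹ := by rw [hb1]
        _ = a * (b * x⁻¹) * a⁻¹ := by group
        _ = a * (x⁻¹ * b) * a⁻¹ := by rw [hb3]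
        _ = a * x⁻¹ * (b * a⁻¹) := by group
        _ = a * x⁻¹ * (a⁻¹ * b) := by rw [hb4]
        _ = a * x⁻¹ * a⁻¹ * b := by group
    have hc : x * (a * x⁻¹ * a⁻¹) ∈ X₀ := by
      rw [hX₀]
      refine Subgroup.mem_inf.mpr ⟨X.mul_mem hx h1, ?_⟩
      rw [Subgroup.mem_centralizer_iff]
      intro u hu
      have ha_c : ∀ u' ∈ U, u' * a = a * u' := fun u' hu' =>
        (Subgroup.mem_centralizer_iff.mp (hAU ha)) u' hu'
      have hxu : x⁻¹ * u * x ∈ U := by
        rw [hU]
        refine Subgroup.mem_inf.mpr ⟨?_, ?_⟩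
        · have := Cfsg.Agent.Lib.Helper4.Replace.conj_mem hHV (H.inv_mem hxH) (hUV hu)
          rwa [inv_inv] at this
        · rw [Subgroup.mem_centralizer_iff]
          intro b hb
          have hb2 : b * x = x * b := (Subgroup.mem_centralizer_iff.mp hxB) b hb
          have hb3 : b * x⁻¹ = x⁻¹ * b := comm_inv hb2
          have hb5 : b * u = u * b := (Subgroup.mem_centralizer_iff.mp (hUB hu)) b hb
          calc b * (x⁻¹ * u * x) = (b * x⁻¹) * u * x := by group
            _ = (x⁻¹ * b) * u * x := by rw [hb3]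
            _ = x⁻¹ * (b * u) * x := by group
            _ = x⁻¹ * (u * b) * x := by rw [hb5]
            _ = x⁻¹ * u * (b * x) := by group
            _ = x⁻¹ * u * (x * b) := by rw [hb2]
            _ = x⁻¹ * u * x * b := by group
      have e1 : u * a⁻¹ = a⁻¹ * u := comm_inv (ha_c u hu)
      have e2 := ha_c _ hxu
      calc u * (x * (a * x⁻¹ * a⁻¹)) = x * ((x⁻¹ * u * x) * a) * x⁻¹ * a⁻¹ := by group
        _ = x * (a * (x⁻¹ * u * x)) * x⁻¹ * a⁻¹ := by rw [e2]
        _ = x * a * x⁻¹ * (u * a⁻¹) := by group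
        _ = x * a * x⁻¹ * (a⁻¹ * u) := by rw [e1]
        _ = x * (a * x⁻¹ * a⁻¹) * u := by group
    rw [hX₀bot, Subgroup.mem_bot] at hc
    calc a * x = (x * (a * x⁻¹ * a⁻¹))⁻¹ * x * a := by group
      _ = x * a := by
        rw [hc]
        group
  -- step 3: cardinalities
  have hUA : V ⊓ Subgroup.centralizer (A : Set G) < U := by
    rw [hU]
    refine lt_of_le_of_ne
      (inf_le_inf_left V (Subgroup.centralizer_le (SetLike.coe_subset_coe.mpr hBA))) ?_
    intro heq
    apply hAU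
    rw [hU, ← heq, Subgroup.le_centralizer_iff]
    exact inf_le_right
  have h1 : p * Nat.card ↥(V ⊓ Subgroup.centralizer (A : Set G)) ≤ Nat.card U :=
    p_mul_card_le (hVp.to_le hUV) hUA
  have h2 := hA.1 B hBA
  rw [← hU] at h2
  have h3 : Nat.card A = p * Nat.card B := card_of_relIndex hBA hBr
  have hBpos : 0 < Nat.card B := Nat.card_pos
  have h4 : Nat.card U ≤ p * Nat.card ↥(V ⊓ Subgroup.centralizer (A : Set G)) := by
    rw [h3] at h2
    have h5 : Nat.card B * Nat.card U ≤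
        Nat.card B * (p * Nat.card ↥(V ⊓ Subgroup.centralizer (A : Set G))) := by
      calc Nat.card B * Nat.card U
          ≤ p * Nat.card B * Nat.card ↥(V ⊓ Subgroup.centralizer (A : Set G)) := h2
        _ = Nat.card B * (p * Nat.card ↥(V ⊓ Subgroup.centralizer (A : Set G))) := by ring
    exact Nat.le_of_mul_le_mul_left h5 hBpos
  have h5 : Nat.card U = p * Nat.card ↥(V ⊓ Subgroup.centralizer (A : Set G)) :=
    le_antisymm h4 h1
  have hcard : Nat.card B * Nat.card ↥(V ⊓ Subgroup.centralizer (B : Set G)) =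
      Nat.card A * Nat.card ↥(V ⊓ Subgroup.centralizer (A : Set G)) := by
    rw [← hU, h5, h3]
    ring
  exact ⟨bo_mono hA hBA hcard, hcard⟩

/-- existence of good hyperplanes avoiding a prescribed nonidentity element -/
theorem exists_good {V H A : Subgroup G}
    (hf : H ⊓ Subgroup.centralizer (V : Set G) = ⊥)
    (hS1 : Subgroup.centralizer (pPrimeCore p ↥H : Set ↥H) ≤ pPrimeCore p ↥H)
    (hAH : A ≤ H) (hA : IsBestOffenderOn p V A) (hA2 : p ^ 2 ≤ Nat.card A) {a : G} (ha : a ∈ A)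
    (ha1 : a ≠ 1) :
    ∃ B : Subgroup G, B ≤ A ∧ B.relIndex A = p ∧ a ∉ B ∧
      ¬ (Qc p H ⊓ Subgroup.centralizer (B : Set G) ≤ Subgroup.centralizer (A : Set G)) := by
  by_contra hcon
  push_neg at hcon
  have hAp : IsPGroup p A := Cfsg.Agent.Lib.Helper4.Thompson.elab_isPGroup (bo_elab hf hAH hA)
  have hgen := Cfsg.Agent.S1324.result p A (Qc p H) (bo_elab hf hAH hA) hA2
    ((Nat.Prime.coprime_iff_not_dvd Fact.out).mp (Qc_coprime p H).symm)
    (hAH.trans (Qc_normal p H))
  have hQa : Qc p H ≤ Subgroup.centralizer ({a} : Set G) := by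
    rw [hgen]
    apply iSup_le
    rintro ⟨B, hBA, hBr⟩
    by_cases haB : a ∈ B
    · exact inf_le_right.trans (Subgroup.centralizer_le (Set.singleton_subset_iff.mpr haB))
    · have hBr' : B.relIndex A = p := by
        apply relIndex_eq_p hAp hBr
        intro h1
        exact haB (Subgroup.relIndex_eq_one.mp h1 ha)
      exact (hcon B hBA hBr' haB).trans
        (Subgroup.centralizer_le (Set.singleton_subset_iff.mpr ha))
  have haQ : a ∈ Subgroup.centralizer (Qc p H : Set G) := by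
    rw [Subgroup.mem_centralizer_iff]
    intro q hq
    exact ((Subgroup.mem_centralizer_iff.mp (hQa hq)) a (Set.mem_singleton a)).symm
  have haQc : a ∈ Qc p H := mem_Qc_of_centralizes hS1 (hAH ha) haQ
  apply ha1
  have h1 : orderOf a ∣ p := orderOf_dvd_of_pow_eq_one (bo_pow hf hAH hA a ha)
  have h2 : orderOf a ∣ Nat.card (Qc p H) := Subgroup.orderOf_dvd_natCard _ haQc
  have h3 : orderOf a ∣ Nat.gcd (Nat.card (Qc p H)) p := Nat.dvd_gcd h2 h1
  rw [Nat.Coprime.gcd_eq_one (Qc_coprime p H)] at h3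
  exact orderOf_eq_one_iff.mp (Nat.dvd_one.mp h3)

/-- KS 9.3.? (a): a nontrivial best offender has `|A| |C_V(A)| = |V|` -/
theorem card_eq_aux {V H : Subgroup G} (hV : IsElementaryAbelian p V)
    (hHV : H ≤ Subgroup.normalizer (V : Set G)) (hf : H ⊓ Subgroup.centralizer (V : Set G) = ⊥)
    (hS1 : Subgroup.centralizer (pPrimeCore p ↥H : Set ↥H) ≤ pPrimeCore p ↥H) (n : ℕ) :
    ∀ A : Subgroup G, Nat.card A = n → A ≤ H → IsBestOffenderOn p V A → A ≠ ⊥ →
      Nat.card A * Nat.card ↥(V ⊓ Subgroup.centralizer (A : Set G)) = Nat.card V := by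
  induction n using Nat.strong_induction_on with
  | _ n ih =>
    intro A hn hAH hA hA1
    have hAp : IsPGroup p A := Cfsg.Agent.Lib.Helper4.Thompson.elab_isPGroup (bo_elab hf hAH hA)
    have hVp : IsPGroup p V := Cfsg.Agent.Lib.Helper4.Thompson.elab_isPGroup hV
    have hp := (Fact.out : p.Prime).one_lt
    rcases card_eq_p_or hAp hA1 with hcA | hA2
    · have hlow : Nat.card V ≤ Nat.card A * Nat.card ↥(V ⊓ Subgroup.centralizer (A : Set G)) := by
        have h1 := hA.1 ⊥ bot_le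
        rw [Subgroup.card_bot, one_mul] at h1
        have hVb : V ⊓ Subgroup.centralizer ((⊥ : Subgroup G) : Set G) = V := by
          apply inf_eq_left.mpr
          intro v _
          rw [Subgroup.mem_centralizer_iff]
          intro h hh
          have h2 : h = 1 := Subgroup.mem_bot.mp hh
          rw [h2, one_mul, mul_one]
        rw [hVb] at h1
        exact h1
      have hlt : V ⊓ Subgroup.centralizer (A : Set G) < V := by
        refine lt_of_le_of_ne inf_le_left ?_
        intro heq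
        apply hA1
        rw [eq_bot_iff, ← hf]
        refine le_inf hAH ?_
        rw [Subgroup.le_centralizer_iff]
        exact (le_of_eq heq.symm).trans inf_le_right
      have hup := p_mul_card_le hVp hlt
      rw [hcA] at hlow ⊢
      exact le_antisymm hup hlow
    · obtain ⟨a, ha, ha1⟩ := exists_ne_one hA1
      obtain ⟨B, hBA, hBr, -, hgood⟩ := exists_good hf hS1 hAH hA hA2 ha ha1
      obtain ⟨hB, hcard⟩ := good_hyp hV hHV hf hAH hA hBA hBr hgood
      have h3 : Nat.card A = p * Nat.card B := card_of_relIndex hBA hBr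
      have hB1 : B ≠ ⊥ := by
        rintro rfl
        rw [Subgroup.card_bot, mul_one] at h3
        rw [h3] at hA2
        nlinarith
      have hlt : Nat.card B < n := by
        rw [← hn, h3]
        have h4 : 0 < Nat.card B := Nat.card_pos
        nlinarith
      rw [← hcard]
      exact ih _ hlt B rfl (hBA.trans hAH) hB hB1

/-- a minimal nontrivially acting best offender has order `p` -/
theorem card_of_min {V H A : Subgroup G} (hV : IsElementaryAbelian p V)
    (hHV : H ≤ Subgroup.normalizer (V : Set G)) (hf : H ⊓ Subgroup.centralizer (V : Set G) = ⊥)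
    (hS1 : Subgroup.centralizer (pPrimeCore p ↥H : Set ↥H) ≤ pPrimeCore p ↥H)
    (hAH : A ≤ H) (hA : IsBestOffenderOn p V A) (hA1 : A ≠ ⊥)
    (hmin : ∀ B : Subgroup G, B ≤ A → IsBestOffenderOn p V B → ⁅V, B⁆ ≠ ⊥ → B = A) :
    Nat.card A = p := by
  have hAp : IsPGroup p A := Cfsg.Agent.Lib.Helper4.Thompson.elab_isPGroup (bo_elab hf hAH hA)
  have hp := (Fact.out : p.Prime).one_lt
  rcases card_eq_p_or hAp hA1 with h | h
  · exact h
  · exfalso
    obtain ⟨a, ha, ha1⟩ := exists_ne_one hA1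
    obtain ⟨B, hBA, hBr, -, hgood⟩ := exists_good hf hS1 hAH hA h ha ha1
    obtain ⟨hB, -⟩ := good_hyp hV hHV hf hAH hA hBA hBr hgood
    have h3 : Nat.card A = p * Nat.card B := card_of_relIndex hBA hBr
    have hB1 : B ≠ ⊥ := by
      rintro rfl
      rw [Subgroup.card_bot, mul_one] at h3
      rw [h3] at h
      nlinarith
    have hBA' : B = A := hmin B hBA hB (comm_ne_bot hf (hBA.trans hAH) hB1)
    rw [hBA', Subgroup.relIndex_self] at hBr
    exact hp.ne hBr

/-- for an offender of order `p` with `|V : C_V(A)| = p`, the commutator has order `p` -/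
theorem comm_card {V H A : Subgroup G} (hV : IsElementaryAbelian p V)
    (hHV : H ≤ Subgroup.normalizer (V : Set G)) (hf : H ⊓ Subgroup.centralizer (V : Set G) = ⊥)
    (hAH : A ≤ H) (hcA : Nat.card A = p)
    (hcard : p * Nat.card ↥(V ⊓ Subgroup.centralizer (A : Set G)) = Nat.card V) :
    Nat.card ↥(⁅V, A⁆) = p := by
  have hp := (Fact.out : p.Prime).one_lt
  have hA1 : A ≠ ⊥ := by
    rintro rfl
    rw [Subgroup.card_bot] at hcA
    exact hp.ne hcA
  obtain ⟨a, ha, ha1⟩ := exists_ne_one hA1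
  have hAV' : A ≤ Subgroup.normalizer (V : Set G) := hAH.trans hHV
  haveI := hV.1
  have hVc : ∀ x ∈ V, ∀ y ∈ V, x * y = y * x := fun x hx y hy => setLike_mul_comm hx hy
  have hpow : ∀ x ∈ A, ∃ n : ℕ, a ^ n = x := by
    intro x hx
    have h1 : (⟨x, hx⟩ : ↥A) ∈ Submonoid.powers (⟨a, ha⟩ : ↥A) :=
      mem_powers_of_prime_card hcA (fun h => ha1 (congrArg Subtype.val h))
    obtain ⟨n, hn⟩ := (Submonoid.mem_powers_iff _ _).mp h1
    refine ⟨n, ?_⟩
    have h2 := congrArg Subtype.val hn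
    simpa using h2
  obtain ⟨φ, hφ⟩ : ∃ φ : ↥V →* ↥V, ∀ v : ↥V, ((φ v : ↥V) : G) = ⁅(v : G), a⁆ :=
    ⟨MonoidHom.mk' (fun v => ⟨⁅(v : G), a⁆, Cfsg.Agent.Lib.Helper4.Replace.comm_mem hAV' ha v.2⟩)
      (by
        intro v w
        apply Subtype.ext
        exact Cfsg.Agent.Lib.Helper4.Replace.comm_mul_left hVc hAV' ha v.2 w.2),
      fun v => rfl⟩
  have hker : (φ.ker).map V.subtype = V ⊓ Subgroup.centralizer (A : Set G) := by
    ext x
    constructor
    · rintro ⟨v, hv, rfl⟩
      have h0 : φ v = 1 := MonoidHom.mem_ker.mp hv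
      have h1 : ⁅(v : G), a⁆ = 1 := by
        rw [← hφ v, h0]
        rfl
      have h2 : (v : G) * a = a * (v : G) := commutatorElement_eq_one_iff_mul_comm.mp h1
      refine Subgroup.mem_inf.mpr ⟨v.2, ?_⟩
      rw [Subgroup.mem_centralizer_iff]
      intro g hg
      obtain ⟨n, rfl⟩ := hpow g hg
      have hc : Commute a (v : G) := h2.symm
      exact (hc.pow_left n).eq
    · intro hx
      obtain ⟨hxV, hxC⟩ := Subgroup.mem_inf.mp hx
      refine ⟨⟨x, hxV⟩, ?_, rfl⟩
      show (⟨x, hxV⟩ : ↥V) ∈ φ.ker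
      rw [MonoidHom.mem_ker]
      apply Subtype.ext
      rw [hφ]
      show ⁅x, a⁆ = 1
      rw [commutatorElement_eq_one_iff_mul_comm]
      exact ((Subgroup.mem_centralizer_iff.mp hxC) a ha).symm
  have hc1 : Nat.card φ.ker = Nat.card ↥(V ⊓ Subgroup.centralizer (A : Set G)) := by
    rw [← hker, Subgroup.card_map_of_injective V.subtype_injective]
  have hc2 : Nat.card φ.ker * φ.ker.index = Nat.card ↥V := Subgroup.card_mul_index φ.ker
  have hc3 : φ.ker.index = p := by
    rw [hc1, ← hcard] at hc2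
    have hcpos : 0 < Nat.card ↥(V ⊓ Subgroup.centralizer (A : Set G)) := Nat.card_pos
    have h5 : Nat.card ↥(V ⊓ Subgroup.centralizer (A : Set G)) * φ.ker.index =
        Nat.card ↥(V ⊓ Subgroup.centralizer (A : Set G)) * p := by
      rw [hc2]
      ring
    exact Nat.eq_of_mul_eq_mul_left hcpos h5
  have hc4 : Nat.card φ.range = p := by rw [← Subgroup.index_ker, hc3]
  have hI : ∀ x, x ∈ (φ.range).map V.subtype ↔ ∃ v ∈ V, ⁅v, a⁆ = x := by
    intro x
    constructor
    · rintro ⟨_, ⟨v, rfl⟩, rfl⟩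
      exact ⟨v, v.2, (hφ v).symm⟩
    · rintro ⟨v, hv, rfl⟩
      exact ⟨φ ⟨v, hv⟩, ⟨⟨v, hv⟩, rfl⟩, hφ ⟨v, hv⟩⟩
  have hpowI : ∀ n : ℕ, ∀ v ∈ V, ⁅v, a ^ n⁆ ∈ (φ.range).map V.subtype := by
    intro n
    induction n with
    | zero =>
      intro v hv
      rw [pow_zero, commutatorElement_one_right]
      exact Subgroup.one_mem _
    | succ n ih =>
      intro v hv
      have e : ⁅v, a ^ (n + 1)⁆ = ⁅v, a⁆ * (a * ⁅v, a ^ n⁆ * a⁻¹) := by
        rw [pow_succ']
        generalize a ^ n = b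
        simp only [commutatorElement_def]
        group
      rw [e]
      apply Subgroup.mul_mem
      · exact (hI _).mpr ⟨v, hv, rfl⟩
      · obtain ⟨u, hu, hue⟩ := (hI _).mp (ih v hv)
        rw [← hue]
        refine (hI _).mpr ⟨a * u * a⁻¹, Cfsg.Agent.Lib.Helper4.Replace.conj_mem hAV' ha hu, ?_⟩
        simp only [commutatorElement_def]
        group
  have hle : ⁅V, A⁆ ≤ (φ.range).map V.subtype := by
    rw [Subgroup.commutator_le]
    intro v hv g hg
    obtain ⟨n, rfl⟩ := hpow g hg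
    exact hpowI n v hv
  have hcI : Nat.card ↥((φ.range).map V.subtype) = p := by
    rw [Subgroup.card_map_of_injective V.subtype_injective, hc4]
  have hd : Nat.card ↥(⁅V, A⁆) ∣ p := by
    rw [← hcI]
    exact Subgroup.card_dvd_of_le hle
  rcases (Nat.dvd_prime (Fact.out : p.Prime)).mp hd with h | h
  · exact absurd (Subgroup.eq_bot_of_card_eq _ h) (comm_ne_bot hf hAH hA1)
  · exact h

/-- offenders of order `p` are minimal nontrivially acting offenders -/
theorem atom_min {V H D : Subgroup G} (hf : H ⊓ Subgroup.centralizer (V : Set G) = ⊥)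
    (hDH : D ≤ H) (hDp : Nat.card D = p) :
    ⁅V, D⁆ ≠ ⊥ ∧
      ∀ C : Subgroup G, C ≤ D → IsBestOffenderOn p V C → ⁅V, C⁆ ≠ ⊥ → C = D := by
  have hp := (Fact.out : p.Prime).one_lt
  have hD1 : D ≠ ⊥ := by
    rintro rfl
    rw [Subgroup.card_bot] at hDp
    exact hp.ne hDp
  refine ⟨comm_ne_bot hf hDH hD1, ?_⟩
  intro C hCD _ hVC
  have hC1 : C ≠ ⊥ := by
    rintro rfl
    exact hVC (Subgroup.commutator_bot_right V)
  have hd : Nat.card C ∣ p := by
    rw [← hDp]
    exact Subgroup.card_dvd_of_le hCD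
  rcases (Nat.dvd_prime (Fact.out : p.Prime)).mp hd with h | h
  · exact absurd (Subgroup.eq_bot_of_card_eq C h) hC1
  · exact Subgroup.eq_of_le_of_card_ge hCD (by rw [hDp, h])

/-- inside a best offender `A`, there is an offender of order `p` outside a given hyperplane -/
theorem exists_atom_not_le {V H A M : Subgroup G} (hV : IsElementaryAbelian p V)
    (hHV : H ≤ Subgroup.normalizer (V : Set G)) (hf : H ⊓ Subgroup.centralizer (V : Set G) = ⊥)
    (hS1 : Subgroup.centralizer (pPrimeCore p ↥H : Set ↥H) ≤ pPrimeCore p ↥H)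
    (hAH : A ≤ H) (hM : M ≤ A) (hMr : M.relIndex A = p) (n : ℕ) :
    ∀ E : Subgroup G, Nat.card E = n → E ≤ A → IsBestOffenderOn p V E → ¬ E ≤ M →
      ∃ D : Subgroup G, D ≤ E ∧ IsBestOffenderOn p V D ∧ Nat.card D = p ∧ ¬ D ≤ M := by
  induction n using Nat.strong_induction_on with
  | _ n ih =>
    intro E hn hEA hE hEM
    have hp := (Fact.out : p.Prime).one_lt
    have hEH : E ≤ H := hEA.trans hAH
    have hEp : IsPGroup p E := Cfsg.Agent.Lib.Helper4.Thompson.elab_isPGroup (bo_elab hf hEH hE)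
    have hE1 : E ≠ ⊥ := by
      rintro rfl
      exact hEM bot_le
    rcases card_eq_p_or hEp hE1 with h | h
    · exact ⟨E, le_rfl, hE, h, hEM⟩
    · have hcardA : Nat.card A = p * Nat.card M := card_of_relIndex hM hMr
      have h1 := Cfsg.Agent.Lib.Helper4.Card.card_mul_card_le E M
      have h2 : Nat.card ↥(E ⊔ M) ≤ Nat.card A := Subgroup.card_le_of_le (sup_le hEA hM)
      have hMpos : 0 < Nat.card M := Nat.card_pos
      have h3 : Nat.card E ≤ p * Nat.card ↥(E ⊓ M) := by
        have h4 : Nat.card E * Nat.card M ≤ (p * Nat.card ↥(E ⊓ M)) * Nat.card M := by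
          calc Nat.card E * Nat.card M ≤ Nat.card ↥(E ⊔ M) * Nat.card ↥(E ⊓ M) := h1
            _ ≤ Nat.card A * Nat.card ↥(E ⊓ M) := Nat.mul_le_mul_right _ h2
            _ = (p * Nat.card ↥(E ⊓ M)) * Nat.card M := by
              rw [hcardA]
              ring
        exact Nat.le_of_mul_le_mul_right h4 hMpos
      have hEM1 : E ⊓ M ≠ ⊥ := by
        intro h0
        rw [h0, Subgroup.card_bot, mul_one] at h3
        nlinarith
      obtain ⟨e, he, he1⟩ := exists_ne_one hEM1
      obtain ⟨heE, heM⟩ := Subgroup.mem_inf.mp he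
      obtain ⟨F, hFE, hFr, heF, hgood⟩ := exists_good hf hS1 hEH hE h heE he1
      obtain ⟨hF, -⟩ := good_hyp hV hHV hf hEH hE hFE hFr hgood
      have hcE : Nat.card E = p * Nat.card F := card_of_relIndex hFE hFr
      have hFM : ¬ F ≤ M := by
        intro hFM
        have hlt : E ⊓ M < E :=
          lt_of_le_of_ne inf_le_left (fun h => hEM ((le_of_eq h.symm).trans inf_le_right))
        have h4 := p_mul_card_le hEp hlt
        rw [hcE] at h4
        have h5 : Nat.card ↥(E ⊓ M) ≤ Nat.card F :=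
          Nat.le_of_mul_le_mul_left h4 (Fact.out : p.Prime).pos
        have h6 : F = E ⊓ M := Subgroup.eq_of_le_of_card_ge (le_inf hFE hFM) h5
        apply heF
        rw [h6]
        exact he
      have hlt : Nat.card F < n := by
        rw [← hn, hcE]
        have h7 : 0 < Nat.card F := Nat.card_pos
        nlinarith
      obtain ⟨D, hDF, hD, hDp, hDM⟩ := ih _ hlt F rfl (hFE.trans hEA) hF hFM
      exact ⟨D, hDF.trans hFE, hD, hDp, hDM⟩

/-- a nontrivial best offender is generated by `k` offenders of order `p`, where `|A| = p ^ k` -/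
theorem decomp {V H : Subgroup G} (hV : IsElementaryAbelian p V)
    (hHV : H ≤ Subgroup.normalizer (V : Set G)) (hf : H ⊓ Subgroup.centralizer (V : Set G) = ⊥)
    (hS1 : Subgroup.centralizer (pPrimeCore p ↥H : Set ↥H) ≤ pPrimeCore p ↥H) (n : ℕ) :
    ∀ A : Subgroup G, Nat.card A = n → A ≤ H → IsBestOffenderOn p V A → A ≠ ⊥ →
      ∃ (k : ℕ) (B : Fin k → Subgroup G),
        (∀ i, B i ≤ A ∧ IsBestOffenderOn p V (B i) ∧ Nat.card (B i) = p) ∧
          ⨆ i, B i = A ∧ Nat.card A = p ^ k := by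
  induction n using Nat.strong_induction_on with
  | _ n ih =>
    intro A hn hAH hA hA1
    have hp := (Fact.out : p.Prime).one_lt
    have hAp : IsPGroup p A := Cfsg.Agent.Lib.Helper4.Thompson.elab_isPGroup (bo_elab hf hAH hA)
    rcases card_eq_p_or hAp hA1 with h | h
    · refine ⟨1, fun _ => A, fun _ => ⟨le_rfl, hA, h⟩, ?_, by rw [h, pow_one]⟩
      exact iSup_const
    · obtain ⟨a, ha, ha1⟩ := exists_ne_one hA1
      obtain ⟨M, hMA, hMr, -, hgood⟩ := exists_good hf hS1 hAH hA h ha ha1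
      obtain ⟨hM, -⟩ := good_hyp hV hHV hf hAH hA hMA hMr hgood
      have hcA : Nat.card A = p * Nat.card M := card_of_relIndex hMA hMr
      have hM1 : M ≠ ⊥ := by
        rintro rfl
        rw [Subgroup.card_bot, mul_one] at hcA
        rw [hcA] at h
        nlinarith
      have hlt : Nat.card M < n := by
        rw [← hn, hcA]
        have h7 : 0 < Nat.card M := Nat.card_pos
        nlinarith
      obtain ⟨k, B, hB, hsup, hck⟩ := ih _ hlt M rfl (hMA.trans hAH) hM hM1
      have hAM : ¬ A ≤ M := by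
        intro hle
        have h8 := Subgroup.relIndex_eq_one.mpr hle
        rw [hMr] at h8
        exact hp.ne' h8
      obtain ⟨D, hDA, hD, hDp, hDM⟩ :=
        exists_atom_not_le hV hHV hf hS1 hAH hMA hMr (Nat.card A) A rfl le_rfl hA hAM
      refine ⟨k + 1, Fin.cons D B, ?_, ?_, ?_⟩
      · intro i
        induction i using Fin.cases with
        | zero =>
          simp only [Fin.cons_zero]
          exact ⟨hDA, hD, hDp⟩
        | succ j =>
          simp only [Fin.cons_succ]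
          obtain ⟨h1, h2, h3⟩ := hB j
          exact ⟨h1.trans hMA, h2, h3⟩
      · have h1 : (⨆ i, (Fin.cons D B : Fin (k + 1) → Subgroup G) i) = D ⊔ M := by
          apply le_antisymm
          · apply iSup_le
            intro i
            induction i using Fin.cases with
            | zero =>
              simp only [Fin.cons_zero]
              exact le_sup_left
            | succ j =>
              simp only [Fin.cons_succ]
              rw [← hsup]
              exact le_sup_of_le_right (le_iSup B j)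
          · apply sup_le
            · have h9 := le_iSup (Fin.cons D B : Fin (k + 1) → Subgroup G) 0
              simpa only [Fin.cons_zero] using h9
            · rw [← hsup]
              apply iSup_le
              intro j
              have h9 := le_iSup (Fin.cons D B : Fin (k + 1) → Subgroup G) j.succ
              simpa only [Fin.cons_succ] using h9
        rw [h1]
        have hlt2 : M < D ⊔ M :=
          lt_of_le_of_ne le_sup_right (fun h => hDM (le_sup_left.trans (le_of_eq h.symm)))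
        have hle2 : D ⊔ M ≤ A := sup_le hDA hMA
        have h4 := p_mul_card_le (hAp.to_le hle2) hlt2
        exact Subgroup.eq_of_le_of_card_ge hle2 (by rw [hcA]; exact h4)
      · rw [hcA, hck, pow_succ]
        ring

theorem card_sup_le_of_comm {X Y : Subgroup G} (h : ∀ x ∈ X, ∀ y ∈ Y, x * y = y * x) :
    Nat.card ↥(X ⊔ Y) ≤ Nat.card X * Nat.card Y := by
  let K : Subgroup G :=
    { carrier := (X : Set G) * (Y : Set G)
      mul_mem' := by
        rintro _ _ ⟨x, hx, y, hy, rfl⟩ ⟨x', hx', y', hy', rfl⟩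
        refine ⟨x * x', X.mul_mem hx hx', y * y', Y.mul_mem hy hy', ?_⟩
        have e := h x' hx' y hy
        calc x * x' * (y * y') = x * (x' * y) * y' := by group
          _ = x * (y * x') * y' := by rw [e]
          _ = x * y * (x' * y') := by group
      one_mem' := ⟨1, X.one_mem, 1, Y.one_mem, by simp⟩
      inv_mem' := by
        rintro _ ⟨x, hx, y, hy, rfl⟩
        refine ⟨x⁻¹, X.inv_mem hx, y⁻¹, Y.inv_mem hy, ?_⟩
        have e := h x hx y hy
        calc x⁻¹ * y⁻¹ = (y * x)⁻¹ := by group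
          _ = (x * y)⁻¹ := by rw [e] }
  have hle : X ⊔ Y ≤ K := by
    apply sup_le
    · intro x hx
      exact ⟨x, hx, 1, Y.one_mem, by simp⟩
    · intro y hy
      exact ⟨1, X.one_mem, y, hy, by simp⟩
  have h1 : Nat.card ↥(X ⊔ Y) ≤ Nat.card K := Subgroup.card_le_of_le hle
  have h2 : Nat.card K = Nat.card ((X : Set G) * (Y : Set G) : Set G) := rfl
  have h3 := Cfsg.Agent.Lib.Helper4.Card.card_mul_set X Y
  have h4 : 0 < Nat.card ↥(X ⊓ Y) := Nat.card_pos
  calc Nat.card ↥(X ⊔ Y) ≤ Nat.card ((X : Set G) * (Y : Set G) : Set G) := by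
        rw [← h2]
        exact h1
    _ ≤ Nat.card ((X : Set G) * (Y : Set G) : Set G) * Nat.card ↥(X ⊓ Y) :=
        Nat.le_mul_of_pos_right _ h4
    _ = Nat.card X * Nat.card Y := h3

theorem card_biSup_le {A : Subgroup G} (hAc : ∀ x ∈ A, ∀ y ∈ A, x * y = y * x) {k : ℕ}
    (B : Fin k → Subgroup G) (hBA : ∀ i, B i ≤ A) (hBp : ∀ i, Nat.card (B i) = p)
    (s : Finset (Fin k)) :
    (⨆ i ∈ s, B i) ≤ A ∧ Nat.card ↥(⨆ i ∈ s, B i) ≤ p ^ s.card := by
  classical
  induction s using Finset.induction_on with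
  | empty => simp
  | insert a s ha ih =>
    rw [Finset.iSup_insert, Finset.card_insert_of_notMem ha]
    obtain ⟨ih1, ih2⟩ := ih
    refine ⟨sup_le (hBA a) ih1, ?_⟩
    have h1 := card_sup_le_of_comm (X := B a) (Y := ⨆ i ∈ s, B i)
      (fun x hx y hy => hAc x (hBA a hx) y (ih1 hy))
    calc Nat.card ↥(B a ⊔ ⨆ i ∈ s, B i) ≤ Nat.card (B a) * Nat.card ↥(⨆ i ∈ s, B i) := h1
      _ ≤ p * p ^ s.card := by
        rw [hBp a]
        exact Nat.mul_le_mul_left _ ih2
      _ = p ^ (s.card + 1) := by ring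

/-- `k` subgroups of order `p` generating an abelian group of order `p ^ k` are independent -/
theorem indep {A : Subgroup G} (hAc : ∀ x ∈ A, ∀ y ∈ A, x * y = y * x) {k : ℕ}
    (B : Fin k → Subgroup G) (hBA : ∀ i, B i ≤ A) (hBp : ∀ i, Nat.card (B i) = p)
    (hcard : Nat.card ↥(⨆ i, B i) = p ^ k) : iSupIndep B := by
  classical
  rw [iSupIndep_def]
  intro i
  rw [disjoint_iff]
  by_contra hne
  have hT : (⨆ j, ⨆ (_ : j ≠ i), B j) = ⨆ j ∈ (Finset.univ.erase i), B j := by
    simp [Finset.mem_erase]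
  have hd : Nat.card ↥(B i ⊓ ⨆ j, ⨆ (_ : j ≠ i), B j) ∣ p := by
    rw [← hBp i]
    exact Subgroup.card_dvd_of_le inf_le_left
  have hle : B i ≤ ⨆ j, ⨆ (_ : j ≠ i), B j := by
    rcases (Nat.dvd_prime (Fact.out : p.Prime)).mp hd with h | h
    · exact absurd (Subgroup.eq_bot_of_card_eq _ h) hne
    · have h5 := Subgroup.eq_of_le_of_card_ge
        (inf_le_left : B i ⊓ (⨆ j, ⨆ (_ : j ≠ i), B j) ≤ B i) (by rw [hBp i, h])
      exact (le_of_eq h5.symm).trans inf_le_right
  have hall : (⨆ j, B j) ≤ ⨆ j, ⨆ (_ : j ≠ i), B j := by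
    apply iSup_le
    intro j
    by_cases hj : j = i
    · rw [hj]
      exact hle
    · exact le_iSup₂ (f := fun j (_ : j ≠ i) => B j) j hj
  have h1 : p ^ k ≤ Nat.card ↥(⨆ j, ⨆ (_ : j ≠ i), B j) := by
    rw [← hcard]
    exact Subgroup.card_le_of_le hall
  have h2 := (card_biSup_le hAc B hBA hBp (Finset.univ.erase i)).2
  rw [← hT, Finset.card_erase_of_mem (Finset.mem_univ i), Finset.card_univ, Fintype.card_fin] at h2
  have hk : 0 < k := i.pos
  have h3 : p ^ (k - 1) < p ^ k :=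
    Nat.pow_lt_pow_right (Fact.out : p.Prime).one_lt (by omega)
  exact absurd (lt_of_le_of_lt (h1.trans h2) h3) (lt_irrefl _)

end fin

end Cfsg.Agent.Lib.Helper4.Offender
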