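import Mathlib
import Cfsg.Prelude.Def_Transfer
import Cfsg.Prelude.Def_PLocal
import Cfsg.Agent.Lib.Helper4.Card
import Cfsg.Agent.Lib.Helper4.Offender
import Cfsg.Agent.Lib.Helper9.Cores
import Cfsg.Agent.S3754
import Cfsg.Agent.Lib.Lead.PSolvOfSolv

/-!
# The holomorph bridge (helper4)

For a normal subgroup `V` of `X` the conjugation action gives `rho V : X →* HolG V`, where
`HolG V = V ⋊ MulAut V` is the holomorph.  Its image acts faithfully on the copy `VV V` of `V`, so
results stated for a faithful action inside an ambient group (offender theory) can be applied to the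
possibly non-faithful action of `X` on `V`.

Main statements: `rho_inl` (conjugation formula), `rho_eq_one_iff` (kernel = centralizer),
`rho_range_inf_centralizer` (faithful), `card_VV_inf_centralizer_map`, `card_map_rho`,
`bo_map` (best offenders transport), `pCore_range_eq_bot`, `hS1_range`.
-/

set_option autoImplicit false

namespace Cfsg.Agent.Lib.Helper4.Hol

open Cfsg

universe u

variable {X : Type u} [Group X] (V : Subgroup X) [hVn : V.Normal]

/-- the holomorph of `V` -/
abbrev HolG : Type u := ↥V ⋊[MonoidHom.id (MulAut ↥V)] MulAut ↥V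

theorem finite_HolG [Finite X] : Finite (HolG V) :=
  Finite.of_equiv _
    (SemidirectProduct.equivProd (N := ↥V) (G := MulAut ↥V) (φ := MonoidHom.id (MulAut ↥V))).symm

/-- the action homomorphism -/
def rho : X →* HolG V := SemidirectProduct.inr.comp (MulAut.conjNormal (H := V))

/-- the copy of `V` inside the holomorph -/
def VV : Subgroup (HolG V) := (SemidirectProduct.inl : ↥V →* HolG V).range

theorem rho_inl (g : X) (v : ↥V) :
    rho V g * SemidirectProduct.inl v * (rho V g)⁻¹ =
      SemidirectProduct.inl (MulAut.conjNormal g v) := by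
  have h := SemidirectProduct.inl_aut (φ := MonoidHom.id (MulAut ↥V)) (MulAut.conjNormal g) v
  rw [map_inv] at h
  exact h.symm

theorem mem_VV {y : HolG V} : y ∈ VV V ↔ ∃ v : ↥V, SemidirectProduct.inl v = y :=
  MonoidHom.mem_range

theorem VV_normal : (VV V).Normal := by
  unfold VV
  rw [SemidirectProduct.range_inl_eq_ker_rightHom]
  infer_instance

theorem VV_le_normalizer (H : Subgroup (HolG V)) :
    H ≤ Subgroup.normalizer ((VV V : Subgroup (HolG V)) : Set (HolG V)) := by
  haveI := VV_normal V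
  rw [Subgroup.normalizer_eq_top]
  exact le_top

theorem rho_eq_one_iff (g : X) : rho V g = 1 ↔ g ∈ Subgroup.centralizer (V : Set X) := by
  constructor
  · intro h
    have h1 : MulAut.conjNormal (H := V) g = 1 := by
      apply SemidirectProduct.inr_injective (φ := MonoidHom.id (MulAut ↥V))
      rw [map_one]
      exact h
    rw [Subgroup.mem_centralizer_iff]
    intro v hv
    have h2 : ((MulAut.conjNormal g (⟨v, hv⟩ : ↥V) : ↥V) : X) = v := by rw [h1]; rfl
    rw [MulAut.conjNormal_apply] at h2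
    have h3 : g * v * g⁻¹ = v := h2
    calc v * g = (g * v * g⁻¹) * g := by rw [h3]
      _ = g * v := by group
  · intro h
    have h1 : MulAut.conjNormal (H := V) g = 1 := by
      refine MulEquiv.ext (fun v => Subtype.ext ?_)
      rw [MulAut.conjNormal_apply]
      have h2 := Subgroup.mem_centralizer_iff.mp h v v.2
      show g * (v : X) * g⁻¹ = (v : X)
      rw [← h2, mul_inv_cancel_right]
    show SemidirectProduct.inr (MulAut.conjNormal (H := V) g) = 1
    rw [h1, map_one]

theorem rho_ker : (rho V).ker = Subgroup.centralizer (V : Set X) := by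
  ext g
  rw [MonoidHom.mem_ker, rho_eq_one_iff]

theorem conj_eq_of_inl {g : X} {v w : ↥V}
    (h : rho V g * SemidirectProduct.inl v * (rho V g)⁻¹ = SemidirectProduct.inl w) :
    g * (v : X) * g⁻¹ = (w : X) := by
  rw [rho_inl] at h
  have h1 := SemidirectProduct.inl_injective h
  have h2 : ((MulAut.conjNormal g v : ↥V) : X) = (w : X) := congrArg Subtype.val h1
  rw [MulAut.conjNormal_apply] at h2
  exact h2

theorem inl_of_conj_eq {g : X} {v w : ↥V} (h : g * (v : X) * g⁻¹ = (w : X)) :
    rho V g * SemidirectProduct.inl v * (rho V g)⁻¹ = SemidirectProduct.inl w := by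
  rw [rho_inl]
  congr 1
  apply Subtype.ext
  rw [MulAut.conjNormal_apply]
  exact h

theorem rho_range_inf_centralizer :
    (rho V).range ⊓ Subgroup.centralizer ((VV V : Subgroup (HolG V)) : Set (HolG V)) = ⊥ := by
  rw [eq_bot_iff]
  rintro y ⟨⟨g, rfl⟩, hy⟩
  rw [Subgroup.mem_bot, rho_eq_one_iff, Subgroup.mem_centralizer_iff]
  intro v hv
  have h1 := Subgroup.mem_centralizer_iff.mp hy (SemidirectProduct.inl (⟨v, hv⟩ : ↥V))
    ((mem_VV V).mpr ⟨_, rfl⟩)
  have h2 : rho V g * SemidirectProduct.inl (⟨v, hv⟩ : ↥V) * (rho V g)⁻¹ =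
      SemidirectProduct.inl (⟨v, hv⟩ : ↥V) := by
    rw [← h1, mul_inv_cancel_right]
  have h4 : g * v * g⁻¹ = v := conj_eq_of_inl V h2
  calc v * g = (g * v * g⁻¹) * g := by rw [h4]
    _ = g * v := by group

theorem VV_inf_centralizer_map (B : Subgroup X) :
    VV V ⊓ Subgroup.centralizer ((B.map (rho V) : Subgroup (HolG V)) : Set (HolG V)) =
      ((Subgroup.centralizer (B : Set X)).subgroupOf V).map SemidirectProduct.inl := by
  ext y
  constructor
  · rintro ⟨hy1, hy2⟩
    obtain ⟨v, rfl⟩ := (mem_VV V).mp hy1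
    refine ⟨v, ?_, rfl⟩
    rw [SetLike.mem_coe, Subgroup.mem_subgroupOf, Subgroup.mem_centralizer_iff]
    intro b hb
    have h1 := Subgroup.mem_centralizer_iff.mp hy2 (rho V b) (Subgroup.mem_map_of_mem _ hb)
    have h2 : rho V b * SemidirectProduct.inl v * (rho V b)⁻¹ = SemidirectProduct.inl v := by
      rw [h1, mul_inv_cancel_right]
    have h4 : b * (v : X) * b⁻¹ = (v : X) := conj_eq_of_inl V h2
    calc b * (v : X) = (b * (v : X) * b⁻¹) * b := by group
      _ = (v : X) * b := by rw [h4]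
  · rintro ⟨v, hv, rfl⟩
    rw [SetLike.mem_coe, Subgroup.mem_subgroupOf, Subgroup.mem_centralizer_iff] at hv
    refine Subgroup.mem_inf.mpr ⟨(mem_VV V).mpr ⟨v, rfl⟩, ?_⟩
    rw [Subgroup.mem_centralizer_iff]
    rintro _ ⟨b, hb, rfl⟩
    have h4 : b * (v : X) * b⁻¹ = (v : X) := by
      rw [hv b hb, mul_inv_cancel_right]
    have h2 := inl_of_conj_eq V h4
    calc rho V b * SemidirectProduct.inl v =
        (rho V b * SemidirectProduct.inl v * (rho V b)⁻¹) * rho V b := by group
      _ = SemidirectProduct.inl v * rho V b := by rw [h2]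

theorem card_VV_inf_centralizer_map (B : Subgroup X) :
    Nat.card ↥(VV V ⊓ Subgroup.centralizer ((B.map (rho V) : Subgroup (HolG V)) : Set (HolG V))) =
      Nat.card ↥(V ⊓ Subgroup.centralizer (B : Set X)) := by
  rw [VV_inf_centralizer_map, Subgroup.card_map_of_injective SemidirectProduct.inl_injective,
    Cfsg.Agent.Lib.Helper4.Card.card_subgroupOf_eq, inf_comm]

theorem card_map_rho (B : Subgroup X) :
    Nat.card ↥(B.map (rho V)) * Nat.card ↥(B ⊓ Subgroup.centralizer (V : Set X)) = Nat.card B := by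
  have h1 : ((rho V).comp B.subtype).range = B.map (rho V) := by
    rw [← MonoidHom.map_range, Subgroup.range_subtype]
  have h2 : ((rho V).comp B.subtype).ker = (Subgroup.centralizer (V : Set X)).subgroupOf B := by
    rw [← MonoidHom.comap_ker, rho_ker]
    rfl
  have h3 := Subgroup.index_ker ((rho V).comp B.subtype)
  have h4 := Subgroup.card_mul_index ((rho V).comp B.subtype).ker
  rw [h3, h1, h2, Cfsg.Agent.Lib.Helper4.Card.card_subgroupOf_eq] at h4
  rw [inf_comm, mul_comm]
  exact h4

theorem VV_elab {p : ℕ} (hV : IsElementaryAbelian p V) : IsElementaryAbelian p (VV V) := by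
  obtain ⟨hVc, hVp⟩ := hV
  refine ⟨⟨⟨fun a b => ?_⟩⟩, ?_⟩
  · obtain ⟨v, hv⟩ := (mem_VV V).mp a.2
    obtain ⟨w, hw⟩ := (mem_VV V).mp b.2
    apply Subtype.ext
    show (a : HolG V) * (b : HolG V) = (b : HolG V) * (a : HolG V)
    rw [← hv, ← hw, ← map_mul, ← map_mul, hVc.is_comm.comm v w]
  · intro y hy
    obtain ⟨v, rfl⟩ := (mem_VV V).mp hy
    have h1 : v ^ p = 1 := Subtype.ext (hVp v v.2)
    rw [← map_pow, h1, map_one]

theorem map_rho_ne_bot {A : Subgroup X} (hA : ¬ A ≤ Subgroup.centralizer (V : Set X)) :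
    A.map (rho V) ≠ ⊥ := by
  intro h
  apply hA
  intro a ha
  rw [← rho_eq_one_iff]
  have h1 : rho V a ∈ A.map (rho V) := Subgroup.mem_map_of_mem _ ha
  rw [h, Subgroup.mem_bot] at h1
  exact h1

/-- best offenders transport to the holomorph -/
theorem bo_map [Finite X] {p : ℕ} (A : Subgroup X)
    (hAc : ⁅A, A⁆ ≤ Subgroup.centralizer (V : Set X))
    (hAp : ∀ a ∈ A, a ^ p ∈ Subgroup.centralizer (V : Set X))
    (hstar : ∀ B : Subgroup X, B ≤ A →
      Nat.card B * Nat.card ↥(V ⊓ Subgroup.centralizer (B : Set X)) ≤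
        Nat.card A * Nat.card ↥(V ⊓ Subgroup.centralizer (A : Set X))) :
    IsBestOffenderOn p (VV V) (A.map (rho V)) := by
  refine ⟨?_, ?_, ?_⟩
  · intro BB hBB
    obtain ⟨B, hBdef⟩ : ∃ B : Subgroup X, B = A ⊓ BB.comap (rho V) := ⟨_, rfl⟩
    have hBA : B ≤ A := by rw [hBdef]; exact inf_le_left
    have hBmap : B.map (rho V) = BB := by
      apply le_antisymm
      · rintro _ ⟨b, hb, rfl⟩
        rw [SetLike.mem_coe, hBdef] at hb
        exact hb.2
      · intro y hy
        obtain ⟨a, ha, rfl⟩ := hBB hy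
        refine ⟨a, ?_, rfl⟩
        rw [SetLike.mem_coe, hBdef]
        exact ⟨ha, hy⟩
    have hBC : B ⊓ Subgroup.centralizer (V : Set X) = A ⊓ Subgroup.centralizer (V : Set X) := by
      apply le_antisymm
      · exact inf_le_inf_right _ hBA
      · rintro c ⟨hcA, hcC⟩
        refine Subgroup.mem_inf.mpr ⟨?_, hcC⟩
        rw [hBdef]
        refine Subgroup.mem_inf.mpr ⟨hcA, ?_⟩
        show rho V c ∈ BB
        rw [(rho_eq_one_iff V c).mpr hcC]
        exact BB.one_mem
    have e1 := card_map_rho V B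
    have e2 := card_map_rho V A
    have e3 := card_VV_inf_centralizer_map V B
    have e4 := card_VV_inf_centralizer_map V A
    rw [hBmap] at e1 e3
    rw [hBC] at e1
    rw [e3, e4]
    have hk : 0 < Nat.card ↥(A ⊓ Subgroup.centralizer (V : Set X)) := Nat.card_pos
    have h5 := hstar B hBA
    rw [← e1, ← e2] at h5
    refine Nat.le_of_mul_le_mul_left ?_ hk
    calc Nat.card ↥(A ⊓ Subgroup.centralizer (V : Set X)) *
          (Nat.card ↥BB * Nat.card ↥(V ⊓ Subgroup.centralizer (B : Set X)))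
        = Nat.card ↥BB * Nat.card ↥(A ⊓ Subgroup.centralizer (V : Set X)) *
          Nat.card ↥(V ⊓ Subgroup.centralizer (B : Set X)) := by ring
      _ ≤ Nat.card ↥(A.map (rho V)) * Nat.card ↥(A ⊓ Subgroup.centralizer (V : Set X)) *
          Nat.card ↥(V ⊓ Subgroup.centralizer (A : Set X)) := h5
      _ = Nat.card ↥(A ⊓ Subgroup.centralizer (V : Set X)) *
          (Nat.card ↥(A.map (rho V)) * Nat.card ↥(V ⊓ Subgroup.centralizer (A : Set X))) := by
        ring
  · rw [← Subgroup.map_commutator]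
    rintro _ ⟨c, hc, rfl⟩
    rw [(rho_eq_one_iff V c).mpr (hAc hc)]
    exact Subgroup.one_mem _
  · rintro _ ⟨a, ha, rfl⟩
    rw [← map_pow, (rho_eq_one_iff V _).mpr (hAp a ha)]
    exact Subgroup.one_mem _

theorem range_solvable [Group.IsSolvable X] : Group.IsSolvable ↥(rho V).range :=
  Group.isSolvable_of_surjective (f := (rho V).rangeRestrict) (rho V).rangeRestrict_surjective

/-- if `X / C_X(V)` has no nontrivial normal `p`-subgroup, neither has the image in the holomorph -/
theorem pCore_range_eq_bot [Finite X] {p : ℕ} [Fact p.Prime]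
    (hD : ∀ D : Subgroup X, D.Normal → Subgroup.centralizer (V : Set X) ≤ D →
      (∃ k : ℕ, (Subgroup.centralizer (V : Set X)).relIndex D = p ^ k) →
      D = Subgroup.centralizer (V : Set X)) :
    pCore p ↥(rho V).range = ⊥ := by
  haveI := finite_HolG V
  obtain ⟨P, hPdef⟩ : ∃ P : Subgroup (HolG V),
      P = (pCore p ↥(rho V).range).map (rho V).range.subtype := ⟨_, rfl⟩
  have hPle : P ≤ (rho V).range := by
    rw [hPdef]
    rintro _ ⟨y, -, rfl⟩
    exact y.2
  have hPconj : ∀ h ∈ (rho V).range, ∀ y ∈ P, h * y * h⁻¹ ∈ P := by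
    intro h hh y hy
    rw [hPdef] at hy ⊢
    obtain ⟨y', hy', rfl⟩ := hy
    have hn : (pCore p ↥(rho V).range).Normal := pCore_normal p _
    exact ⟨⟨h, hh⟩ * y' * ⟨h, hh⟩⁻¹, hn.conj_mem y' hy' ⟨h, hh⟩, rfl⟩
  obtain ⟨D, hDdef⟩ : ∃ D : Subgroup X, D = P.comap (rho V) := ⟨_, rfl⟩
  have hDn : D.Normal := by
    constructor
    intro d hd g
    rw [hDdef] at hd ⊢
    show rho V (g * d * g⁻¹) ∈ P
    rw [map_mul, map_mul, map_inv]
    exact hPconj _ ⟨g, rfl⟩ _ hd
  have hCD : Subgroup.centralizer (V : Set X) ≤ D := by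
    intro c hc
    rw [hDdef]
    show rho V c ∈ P
    rw [(rho_eq_one_iff V c).mpr hc]
    exact P.one_mem
  have hDmap : D.map (rho V) = P := by
    rw [hDdef, Subgroup.map_comap_eq]
    exact inf_eq_right.mpr hPle
  have hPp : IsPGroup p P := by
    rw [hPdef]
    exact (Cfsg.Agent.Lib.Helper9.pCore_isPGroup p _).map _
  obtain ⟨k, hk⟩ := (IsPGroup.iff_card (p := p) (G := ↥P)).mp hPp
  have e1 := card_map_rho V D
  rw [hDmap] at e1
  have e2 := Cfsg.Agent.Lib.Helper4.Card.card_eq_relIndex_mul_card_inf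
    (Subgroup.centralizer (V : Set X)) D
  have hpos : 0 < Nat.card ↥(D ⊓ Subgroup.centralizer (V : Set X)) := Nat.card_pos
  have hrel : (Subgroup.centralizer (V : Set X)).relIndex D = p ^ k := by
    rw [inf_comm] at e2
    rw [← hk]
    apply Nat.eq_of_mul_eq_mul_right hpos
    rw [← e2, e1]
  have hDC := hD D hDn hCD ⟨k, hrel⟩
  have hP1 : P = ⊥ := by
    rw [← hDmap, hDC, eq_bot_iff]
    rintro _ ⟨c, hc, rfl⟩
    rw [Subgroup.mem_bot]
    exact (rho_eq_one_iff V c).mpr hc
  rw [hPdef] at hP1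
  exact (Subgroup.map_eq_bot_iff_of_injective _ (Subgroup.subtype_injective _)).mp hP1

/-- the hypothesis `hS1` of the offender theory, for the image of a solvable group -/
theorem hS1_range [Finite X] [Group.IsSolvable X] {p : ℕ} [Fact p.Prime]
    (hD : ∀ D : Subgroup X, D.Normal → Subgroup.centralizer (V : Set X) ≤ D →
      (∃ k : ℕ, (Subgroup.centralizer (V : Set X)).relIndex D = p ^ k) →
      D = Subgroup.centralizer (V : Set X)) :
    Subgroup.centralizer (pPrimeCore p ↥(rho V).range : Set ↥(rho V).range) ≤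
      pPrimeCore p ↥(rho V).range := by
  haveI := finite_HolG V
  haveI := range_solvable V
  exact Cfsg.Agent.S3754.dual_hall_higman
    (Cfsg.Agent.Lib.Lead.PSolvOfSolv.isPSolvable_of_isSolvable (G := ↥(rho V).range) p)
    (pCore_range_eq_bot V hD)

end Cfsg.Agent.Lib.Helper4.Hol
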