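import Mathlib
import Cfsg.Agent.Lib.Helper4.Hol
import Cfsg.Agent.Lib.Helper4.Offender
import Cfsg.Agent.Lib.Helper4.SL2Rep
import Cfsg.Agent.Lib.Lead.QuadBridge

/-!
# Offenders in a solvable group give an `S₃`-pair on a four-group (helper4, `p = 2`)

`core613e`: the element-level form (for `p = 2`) of the `SL₂(p)` pair lemma: a transvection `a` and
its conjugate `b = x a x⁻¹` under a `2'`-element act on `u₁, u₂ ∈ V` by
`a : u₁ ↦ u₁, u₂ ↦ u₁ u₂` and `b : u₂ ↦ u₂, u₁ ↦ u₁ u₂`.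

`offender_data`: `X` solvable, `V` normal elementary abelian `2`-subgroup with `O₂(X / C_X(V)) = 1`,
`A` an elementary abelian `2`-subgroup maximizing `|B| |C_V(B)|` over its subgroups and not
centralizing `V`: then such a configuration `a ∈ A`, `b = y a y⁻¹`, `u₁, u₂ ∈ V` exists in `X`.
-/

set_option autoImplicit false

namespace Cfsg.Agent.Lib.Helper4.HolS4

open Cfsg

open scoped commutatorElement

universe u

open Cfsg.Agent.Lib.Lead.QuadBridge in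
theorem core613e {G : Type u} [Group G] [Finite G] {p : ℕ} [Fact p.Prime] (hp2 : p = 2)
    (V N : Subgroup G)
    (hVc : IsMulCommutative V) (hVp : ∀ v ∈ V, v ^ p = 1) (a x : G)
    (haV : a ∈ Subgroup.normalizer (V : Set G)) (hxV : x ∈ Subgroup.normalizer (V : Set G))
    (hf : Subgroup.closure ({a, x * a * x⁻¹} : Set G) ⊓ Subgroup.centralizer (V : Set G) = ⊥)
    (ha : a ^ p = 1) (hax : x * a ≠ a * x)
    (hcW : Nat.card ↥(⁅V, Subgroup.zpowers a⁆) = p)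
    (hxN : x ∈ N) (hNa : ∀ q ∈ N, a * q * a⁻¹ ∈ N) (hNc : (Nat.card N).Coprime p) :
    ∃ u₁ u₂ : G, u₁ ∈ V ∧ u₂ ∈ V ∧ u₁ ≠ 1 ∧ u₁ ≠ u₂ ∧ a * u₁ * a⁻¹ = u₁ ∧
      a * u₂ * a⁻¹ = u₁ * u₂ ∧ (x * a * x⁻¹) * u₂ * (x * a * x⁻¹)⁻¹ = u₂ ∧
      (x * a * x⁻¹) * u₁ * (x * a * x⁻¹)⁻¹ = u₁ * u₂ := by
  have hp : p.Prime := Fact.out
  obtain ⟨b, hbdef⟩ : ∃ b : G, b = x * a * x⁻¹ := ⟨_, rfl⟩
  rw [← hbdef] at hf ⊢
  obtain ⟨E, hEdef⟩ : ∃ E : Subgroup G, E = Subgroup.closure ({a, b} : Set G) := ⟨_, rfl⟩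
  rw [← hEdef] at hf
  have hbV : b ∈ Subgroup.normalizer (V : Set G) := by
    rw [hbdef]
    exact Subgroup.mul_mem _ (Subgroup.mul_mem _ hxV haV) (Subgroup.inv_mem _ hxV)
  have haE : a ∈ E := by rw [hEdef]; exact Subgroup.subset_closure (by simp)
  have hbE : b ∈ E := by rw [hEdef]; exact Subgroup.subset_closure (by simp)
  have hEN : E ≤ Subgroup.normalizer (V : Set G) := by
    rw [hEdef, Subgroup.closure_le]
    intro y hy
    rcases hy with h | h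
    · rw [SetLike.mem_coe, h]; exact haV
    · have h' : y = b := h
      rw [SetLike.mem_coe, h']; exact hbV
  have hb : b ^ p = 1 := by rw [hbdef, conj_pow, ha, mul_one, mul_inv_cancel]
  have hab : a ≠ b := by
    intro h
    apply hax
    rw [hbdef] at h
    calc x * a = x * a * x⁻¹ * x := by group
      _ = a * x := by rw [← h]
  have ha1 : a ≠ 1 := by
    intro h
    apply hax
    rw [h, mul_one, one_mul]
  have haC : a ∉ Subgroup.centralizer (V : Set G) := by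
    intro h
    have h1 : a ∈ E ⊓ Subgroup.centralizer (V : Set G) := ⟨haE, h⟩
    rw [hf, Subgroup.mem_bot] at h1
    exact ha1 h1
  obtain ⟨v₀, hv₀, hv₀a⟩ : ∃ v₀ ∈ V, v₀ * a ≠ a * v₀ := by
    by_contra hcon
    push_neg at hcon
    exact haC (Subgroup.mem_centralizer_iff.mpr hcon)
  obtain ⟨u₁, hu₁def⟩ : ∃ u₁ : G, u₁ = a * v₀ * a⁻¹ * v₀⁻¹ := ⟨_, rfl⟩
  have hconjV : ∀ (g : G), g ∈ Subgroup.normalizer (V : Set G) → ∀ v ∈ V, g * v * g⁻¹ ∈ V :=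
    fun g hg v hv => (Subgroup.mem_normalizer_iff.mp hg v).mp hv
  have hconjV' : ∀ (g : G), g ∈ Subgroup.normalizer (V : Set G) → ∀ v ∈ V, g⁻¹ * v * g ∈ V := by
    intro g hg v hv
    have h := hconjV g⁻¹ (Subgroup.inv_mem _ hg) v hv
    rwa [inv_inv] at h
  have hu₁V : u₁ ∈ V := by
    rw [hu₁def]; exact V.mul_mem (hconjV a haV v₀ hv₀) (V.inv_mem hv₀)
  have hu₁1 : u₁ ≠ 1 := by
    intro h
    apply hv₀a
    rw [hu₁def] at h
    have h1 : a * v₀ * a⁻¹ = v₀ := mul_inv_eq_one.mp h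
    have h2 : a * v₀ = v₀ * a := mul_inv_eq_iff_eq_mul.mp h1
    exact h2.symm
  have hcommA : ∀ v ∈ V, a * v * a⁻¹ * v⁻¹ ∈ ⁅V, Subgroup.zpowers a⁆ := by
    intro v hv
    have h1 : ⁅v, a⁆ ∈ ⁅V, Subgroup.zpowers a⁆ :=
      Subgroup.commutator_mem_commutator hv (Subgroup.mem_zpowers a)
    have h2 : a * v * a⁻¹ * v⁻¹ = ⁅v, a⁆⁻¹ := by rw [commutatorElement_inv]; rfl
    rw [h2]; exact Subgroup.inv_mem _ h1
  have hu₁W : u₁ ∈ ⁅V, Subgroup.zpowers a⁆ := by rw [hu₁def]; exact hcommA v₀ hv₀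
  have hu₁p : u₁ ^ p = 1 := hVp u₁ hu₁V
  have hord : orderOf u₁ = p := orderOf_eq_prime hu₁p hu₁1
  have hzp : Subgroup.zpowers u₁ = ⁅V, Subgroup.zpowers a⁆ := by
    apply Subgroup.eq_of_le_of_card_ge
    · rw [Subgroup.zpowers_le]; exact hu₁W
    · exact le_of_eq (by rw [hcW, Nat.card_zpowers, hord])
  have hCaG : ∀ v ∈ V, ∃ k : ℕ, a * v * a⁻¹ * v⁻¹ = u₁ ^ k := by
    intro v hv
    have h1 : a * v * a⁻¹ * v⁻¹ ∈ Subgroup.zpowers u₁ := by rw [hzp]; exact hcommA v hv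
    have h2 : a * v * a⁻¹ * v⁻¹ ∈ Submonoid.powers u₁ := mem_powers_iff_mem_zpowers.mpr h1
    obtain ⟨k, hk⟩ := (Submonoid.mem_powers_iff _ _).mp h2
    exact ⟨k, hk.symm⟩
  obtain ⟨u₂, hu₂def⟩ : ∃ u₂ : G, u₂ = x * u₁ * x⁻¹ := ⟨_, rfl⟩
  have hu₂V : u₂ ∈ V := by rw [hu₂def]; exact hconjV x hxV u₁ hu₁V
  have hu₂1 : u₂ ≠ 1 := by
    intro h
    apply hu₁1
    rw [hu₂def] at h
    have h1 : u₁ = x⁻¹ * (x * u₁ * x⁻¹) * x := by group
    rw [h1, h]; group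
  have hCbG : ∀ v ∈ V, ∃ k : ℕ, b * v * b⁻¹ * v⁻¹ = u₂ ^ k := by
    intro v hv
    obtain ⟨k, hk⟩ := hCaG (x⁻¹ * v * x) (hconjV' x hxV v hv)
    refine ⟨k, ?_⟩
    rw [hu₂def, conj_pow, ← hk, hbdef]
    group
  have hu₁E : u₁ ∈ ⁅V, E⁆ := by
    have h1 : ⁅v₀, a⁆ ∈ ⁅V, E⁆ := Subgroup.commutator_mem_commutator hv₀ haE
    have h2 : u₁ = ⁅v₀, a⁆⁻¹ := by rw [hu₁def, commutatorElement_inv]; rfl
    rw [h2]; exact Subgroup.inv_mem _ h1
  have hu₂E : u₂ ∈ ⁅V, E⁆ := by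
    have h1 : ⁅x * v₀ * x⁻¹, b⁆ ∈ ⁅V, E⁆ :=
      Subgroup.commutator_mem_commutator (hconjV x hxV v₀ hv₀) hbE
    have h2 : u₂ = ⁅x * v₀ * x⁻¹, b⁆⁻¹ := by
      rw [hu₂def, hu₁def, commutatorElement_inv, commutatorElement_def, hbdef]; group
    rw [h2]; exact Subgroup.inv_mem _ h1
  -- the additive picture
  have hW : ∀ w : AV V hVc, p • w = 0 := by
    intro w
    refine AV_ext V hVc _ _ ?_
    rw [ofAV_nsmul_coe, hVp _ (ofAV V hVc w).2]; rfl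
  haveI : Module (ZMod p) (AV V hVc) := AddCommGroup.zmodModule hW
  obtain ⟨T, hT⟩ : ∃ T : ↥E →* Module.End (ZMod p) (AV V hVc), ∀ (e : ↥E) (m : AV V hVc),
      (ofAV V hVc (T e m) : G) = (e : G) * (ofAV V hVc m : G) * (e : G)⁻¹ := by
    refine ⟨{ toFun := fun e => (conjEnd V hVc ⟨e.1, hEN e.2⟩).toZModLinearMap p
              map_one' := ?_
              map_mul' := ?_ }, fun e m => rfl⟩
    · apply LinearMap.ext
      intro m
      refine AV_ext V hVc _ _ ?_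
      show (1 : G) * (ofAV V hVc m : G) * (1 : G)⁻¹ = (ofAV V hVc m : G)
      group
    · intro y z
      apply LinearMap.ext
      intro m
      refine AV_ext V hVc _ _ ?_
      show ((y : G) * (z : G)) * (ofAV V hVc m : G) * ((y : G) * (z : G))⁻¹ =
        (y : G) * ((z : G) * (ofAV V hVc m : G) * (z : G)⁻¹) * (y : G)⁻¹
      group
  have hTinj : ∀ e : ↥E, T e = 1 → e = 1 := by
    intro e he
    have h0 : (e : G) ∈ Subgroup.centralizer (V : Set G) := by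
      rw [Subgroup.mem_centralizer_iff]
      intro v hv
      have h2 := hT e (toAV V hVc ⟨v, hv⟩)
      rw [he, Module.End.one_apply] at h2
      have h3 : v = (e : G) * v * (e : G)⁻¹ := h2
      calc v * (e : G) = ((e : G) * v * (e : G)⁻¹) * (e : G) := by rw [← h3]
        _ = (e : G) * v := by group
    have h1 : (e : G) ∈ E ⊓ Subgroup.centralizer (V : Set G) := Subgroup.mem_inf.mpr ⟨e.2, h0⟩
    rw [hf, Subgroup.mem_bot] at h1
    exact Subtype.ext h1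
  obtain ⟨a', ha'⟩ : ∃ a' : ↥E, (a' : G) = a := ⟨⟨a, haE⟩, rfl⟩
  obtain ⟨b', hb'⟩ : ∃ b' : ↥E, (b' : G) = b := ⟨⟨b, hbE⟩, rfl⟩
  have hgen : Subgroup.closure ({a', b'} : Set ↥E) = ⊤ := by
    apply Subgroup.map_injective E.subtype_injective
    rw [MonoidHom.map_closure, Set.image_pair, ← MonoidHom.range_eq_map, Subgroup.range_subtype]
    show Subgroup.closure {(a' : G), (b' : G)} = E
    rw [ha', hb']
    exact hEdef.symm
  have hap' : a' ^ p = 1 := by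
    apply Subtype.ext
    show (a' : G) ^ p = 1
    rw [ha', ha]
  have hbp' : b' ^ p = 1 := by
    apply Subtype.ext
    show (b' : G) ^ p = 1
    rw [hb', hb]
  have hab' : a' ≠ b' := by
    intro h
    apply hab
    rw [← ha', ← hb', h]
  obtain ⟨w₁, hw₁def⟩ : ∃ w₁ : AV V hVc, (ofAV V hVc w₁ : G) = u₁ :=
    ⟨toAV V hVc ⟨u₁, hu₁V⟩, rfl⟩
  obtain ⟨w₂, hw₂def⟩ : ∃ w₂ : AV V hVc, (ofAV V hVc w₂ : G) = u₂ :=
    ⟨toAV V hVc ⟨u₂, hu₂V⟩, rfl⟩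
  have hw₁0 : w₁ ≠ 0 := by
    intro h
    apply hu₁1
    exact hw₁def.symm.trans (congrArg (fun w : AV V hVc => (ofAV V hVc w : G)) h)
  have hw₂0 : w₂ ≠ 0 := by
    intro h
    apply hu₂1
    exact hw₂def.symm.trans (congrArg (fun w : AV V hVc => (ofAV V hVc w : G)) h)
  have hCa : ∀ m : AV V hVc, ∃ k : ZMod p, T a' m - m = k • w₁ := by
    intro m
    obtain ⟨k, hk⟩ := hCaG (ofAV V hVc m : G) (ofAV V hVc m).2
    refine ⟨(k : ZMod p), AV_ext V hVc _ _ ?_⟩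
    rw [Nat.cast_smul_eq_nsmul, ofAV_sub_coe, ofAV_nsmul_coe, hT, ha', hw₁def]
    exact hk
  have hCb : ∀ m : AV V hVc, ∃ k : ZMod p, T b' m - m = k • w₂ := by
    intro m
    obtain ⟨k, hk⟩ := hCbG (ofAV V hVc m : G) (ofAV V hVc m).2
    refine ⟨(k : ZMod p), AV_ext V hVc _ _ ?_⟩
    rw [Nat.cast_smul_eq_nsmul, ofAV_sub_coe, ofAV_nsmul_coe, hT, hb', hw₂def]
    exact hk
  have hNr : ∀ q ∈ N.subgroupOf E, q ^ Nat.card N = 1 := by
    intro q hq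
    apply Subtype.ext
    show (q : G) ^ Nat.card N = 1
    have h1 : (⟨(q : G), Subgroup.mem_subgroupOf.mp hq⟩ : ↥N) ^ Nat.card N = 1 :=
      pow_card_eq_one'
    exact congrArg Subtype.val h1
  have hNa' : ∀ q ∈ N.subgroupOf E, a' * q * a'⁻¹ ∈ N.subgroupOf E := by
    intro q hq
    rw [Subgroup.mem_subgroupOf] at hq ⊢
    show (a' : G) * (q : G) * (a' : G)⁻¹ ∈ N
    rw [ha']
    exact hNa _ hq
  have hd' : b' * a'⁻¹ ∈ N.subgroupOf E := by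
    rw [Subgroup.mem_subgroupOf]
    show (b' : G) * (a' : G)⁻¹ ∈ N
    rw [hb', ha', hbdef]
    have h1 : x * a * x⁻¹ * a⁻¹ = x * (a * x⁻¹ * a⁻¹) := by group
    rw [h1]
    exact N.mul_mem hxN (hNa _ (N.inv_mem hxN))
  obtain ⟨hp23, hiso, hind, hsp, hfaith⟩ :=
    Cfsg.Agent.Lib.Helper4.SL2Rep.lin_main T hTinj a' b' hgen hap' hbp' hab' w₁ w₂ hw₁0 hw₂0
      hCa hCb (N.subgroupOf E) (Nat.card N) hNc hNr hNa' hd'
  -- element-level data
  have hw11 : T a' w₁ = w₁ := by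
    obtain ⟨k, hk⟩ := hCa w₁
    exact Cfsg.Agent.Lib.Helper4.SL2Rep.fix_of_pow T a' hap' w₁ k hk
  have hw22 : T b' w₂ = w₂ := by
    obtain ⟨k, hk⟩ := hCb w₂
    exact Cfsg.Agent.Lib.Helper4.SL2Rep.fix_of_pow T b' hbp' w₂ k hk
  have ha'1 : a' ≠ 1 := by
    intro h
    apply ha1
    rw [← ha', h]; rfl
  have hb'1 : b' ≠ 1 := by
    intro h
    have h1 : b = 1 := by rw [← hb', h]; rfl
    apply ha1
    rw [hbdef] at h1
    calc a = x⁻¹ * (x * a * x⁻¹) * x := by group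
      _ = 1 := by rw [h1]; group
  have hk2 : ∀ k : ZMod p, k = 0 ∨ k = 1 := by
    have h0 : ∀ q : ℕ, q = 2 → ∀ k : ZMod q, k = 0 ∨ k = 1 := by
      intro q hq
      subst hq
      decide
    exact h0 p hp2
  have h12 : T a' w₂ = w₂ + w₁ := by
    obtain ⟨k, hk⟩ := hCa w₂
    rcases hk2 k with h | h
    · exfalso
      refine ha'1 (hfaith a' hw11 ?_)
      rw [h, zero_smul] at hk
      exact sub_eq_zero.mp hk
    · rw [h, one_smul] at hk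
      rw [← hk]; abel
  have h21 : T b' w₁ = w₁ + w₂ := by
    obtain ⟨k, hk⟩ := hCb w₁
    rcases hk2 k with h | h
    · exfalso
      refine hb'1 (hfaith b' ?_ hw22)
      rw [h, zero_smul] at hk
      exact sub_eq_zero.mp hk
    · rw [h, one_smul] at hk
      rw [← hk]; abel
  have hne : u₁ ≠ u₂ := by
    intro h
    have h1 : w₁ = w₂ := AV_ext V hVc _ _ (by rw [hw₁def, hw₂def, h])
    have h2 := hind 1 (-1) (by rw [one_smul, neg_smul, one_smul, h1, add_neg_cancel])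
    exact one_ne_zero h2.1
  have hadd : ∀ y z : AV V hVc,
      (ofAV V hVc (y + z) : G) = (ofAV V hVc y : G) * (ofAV V hVc z : G) := fun _ _ => rfl
  have hcomm : u₂ * u₁ = u₁ * u₂ :=
    congrArg Subtype.val (hVc.is_comm.comm ⟨u₂, hu₂V⟩ ⟨u₁, hu₁V⟩)
  refine ⟨u₁, u₂, hu₁V, hu₂V, hu₁1, hne, ?_, ?_, ?_, ?_⟩
  · have h := hT a' w₁
    rw [hw11, ha', hw₁def] at h
    exact h.symm
  · have h := hT a' w₂
    rw [h12, ha', hadd, hw₂def, hw₁def] at h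
    rw [← h, hcomm]
  · have h := hT b' w₂
    rw [hw22, hb', hw₂def] at h
    exact h.symm
  · have h := hT b' w₁
    rw [h21, hb', hadd, hw₁def, hw₂def] at h
    rw [← h]

open Cfsg.Agent.Lib.Helper4.Hol in
/-- an offender in a solvable group acting on a normal elementary abelian `2`-subgroup `V` with
`O₂(X / C_X(V)) = 1` yields an `S₃`-pair on a four-group of `V` -/
theorem offender_data {X : Type u} [Group X] [Finite X] [Group.IsSolvable X]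
    (V : Subgroup X) [V.Normal] (hV : IsElementaryAbelian 2 V)
    (hD : ∀ D : Subgroup X, D.Normal → Subgroup.centralizer (V : Set X) ≤ D →
      (∃ k : ℕ, (Subgroup.centralizer (V : Set X)).relIndex D = 2 ^ k) →
      D = Subgroup.centralizer (V : Set X))
    (A : Subgroup X) (hAe : IsElementaryAbelian 2 A)
    (hstar : ∀ B : Subgroup X, B ≤ A →
      Nat.card B * Nat.card ↥(V ⊓ Subgroup.centralizer (B : Set X)) ≤
        Nat.card A * Nat.card ↥(V ⊓ Subgroup.centralizer (A : Set X)))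
    (hAV : ¬ A ≤ Subgroup.centralizer (V : Set X)) :
    ∃ a ∈ A, ∃ y : X, ∃ u₁ ∈ V, ∃ u₂ ∈ V, u₁ ≠ 1 ∧ u₁ ≠ u₂ ∧ a * u₁ * a⁻¹ = u₁ ∧
      a * u₂ * a⁻¹ = u₁ * u₂ ∧ (y * a * y⁻¹) * u₂ * (y * a * y⁻¹)⁻¹ = u₂ ∧
      (y * a * y⁻¹) * u₁ * (y * a * y⁻¹)⁻¹ = u₁ * u₂ := by
  haveI : Fact (Nat.Prime 2) := ⟨Nat.prime_two⟩
  haveI := finite_HolG V
  obtain ⟨H, hHdef⟩ : ∃ H : Subgroup (HolG V), H = (rho V).range := ⟨_, rfl⟩
  have hVV := VV_elab V hV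
  have hHV : H ≤ Subgroup.normalizer ((VV V : Subgroup (HolG V)) : Set (HolG V)) :=
    VV_le_normalizer V H
  have hf : H ⊓ Subgroup.centralizer ((VV V : Subgroup (HolG V)) : Set (HolG V)) = ⊥ := by
    rw [hHdef]; exact rho_range_inf_centralizer V
  have hS1 : Subgroup.centralizer (pPrimeCore 2 ↥H : Set ↥H) ≤ pPrimeCore 2 ↥H := by
    subst hHdef
    exact hS1_range V hD
  have hAcomm : ∀ a ∈ A, ∀ b ∈ A, a * b = b * a := fun a ha b hb =>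
    congrArg Subtype.val (hAe.1.is_comm.comm ⟨a, ha⟩ ⟨b, hb⟩)
  have hbo : IsBestOffenderOn 2 (VV V) (A.map (rho V)) := by
    refine bo_map V A ?_ ?_ hstar
    · rw [Subgroup.commutator_le]
      intro a ha b hb
      rw [commutatorElement_eq_one_iff_commute.mpr (hAcomm a ha b hb)]
      exact Subgroup.one_mem _
    · intro a ha
      rw [hAe.2 a ha]
      exact Subgroup.one_mem _
  have hAH : A.map (rho V) ≤ H := by
    rw [hHdef]
    rintro _ ⟨a, -, rfl⟩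
    exact ⟨a, rfl⟩
  have hA1 : A.map (rho V) ≠ ⊥ := map_rho_ne_bot V hAV
  obtain ⟨A₀, hA₀le, hA₀bo, hA₀V, hA₀min⟩ : ∃ A₀ : Subgroup (HolG V), A₀ ≤ A.map (rho V) ∧
      IsBestOffenderOn 2 (VV V) A₀ ∧ ⁅VV V, A₀⁆ ≠ ⊥ ∧
      ∀ B : Subgroup (HolG V), B ≤ A₀ → IsBestOffenderOn 2 (VV V) B → ⁅VV V, B⁆ ≠ ⊥ → B = A₀ := by
    haveI : Nonempty {B : Subgroup (HolG V) // B ≤ A.map (rho V) ∧
        IsBestOffenderOn 2 (VV V) B ∧ ⁅VV V, B⁆ ≠ ⊥} :=
      ⟨⟨A.map (rho V), le_refl _, hbo,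
        Cfsg.Agent.Lib.Helper4.Offender.comm_ne_bot hf hAH hA1⟩⟩
    obtain ⟨B₀, hB₀⟩ := Finite.exists_min
      (fun B : {B : Subgroup (HolG V) // B ≤ A.map (rho V) ∧
        IsBestOffenderOn 2 (VV V) B ∧ ⁅VV V, B⁆ ≠ ⊥} => Nat.card (B : Subgroup (HolG V)))
    refine ⟨B₀.1, B₀.2.1, B₀.2.2.1, B₀.2.2.2, ?_⟩
    intro B hB hBbo hBV
    exact Subgroup.eq_of_le_of_card_ge hB (hB₀ ⟨B, hB.trans B₀.2.1, hBbo, hBV⟩)
  have hA₀H : A₀ ≤ H := hA₀le.trans hAH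
  have hA₀1 : A₀ ≠ ⊥ := by
    intro h
    rw [h] at hA₀V
    exact hA₀V (Subgroup.commutator_bot_right _)
  have hcA : Nat.card A₀ = 2 :=
    Cfsg.Agent.Lib.Helper4.Offender.card_of_min hVV hHV hf hS1 hA₀H hA₀bo hA₀1 hA₀min
  have hcard := Cfsg.Agent.Lib.Helper4.Offender.card_eq_aux hVV hHV hf hS1 (Nat.card A₀) A₀ rfl
    hA₀H hA₀bo hA₀1
  rw [hcA] at hcard
  have hcW : Nat.card ↥(⁅VV V, A₀⁆) = 2 :=
    Cfsg.Agent.Lib.Helper4.Offender.comm_card hVV hHV hf hA₀H hcA hcard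
  obtain ⟨α, hαA, hα1⟩ := Cfsg.Agent.Lib.Helper4.Offender.exists_ne_one hA₀1
  have hαp : α ^ 2 = 1 := Cfsg.Agent.Lib.Helper4.Offender.bo_pow hf hA₀H hA₀bo α hαA
  have hAz : A₀ = Subgroup.zpowers α := by
    symm
    apply Subgroup.eq_of_le_of_card_ge
    · rw [Subgroup.zpowers_le]; exact hαA
    · exact le_of_eq (by rw [hcA, Nat.card_zpowers, orderOf_eq_prime hαp hα1])
  have hαH : α ∈ H := hA₀H hαA
  obtain ⟨x, hxQ, hxα⟩ : ∃ x ∈ Cfsg.Agent.Lib.Helper4.Offender.Qc 2 H, x * α ≠ α * x := by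
    by_contra hcon
    push_neg at hcon
    have h1 : α ∈ Subgroup.centralizer
        (Cfsg.Agent.Lib.Helper4.Offender.Qc 2 H : Set (HolG V)) :=
      Subgroup.mem_centralizer_iff.mpr hcon
    have h2 := Cfsg.Agent.Lib.Helper4.Offender.mem_Qc_of_centralizes hS1 hαH h1
    have h3 : α ^ Nat.card (Cfsg.Agent.Lib.Helper4.Offender.Qc 2 H) = 1 := by
      have h4 : (⟨α, h2⟩ : ↥(Cfsg.Agent.Lib.Helper4.Offender.Qc 2 H)) ^
          Nat.card (Cfsg.Agent.Lib.Helper4.Offender.Qc 2 H) = 1 := pow_card_eq_one'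
      exact congrArg Subtype.val h4
    exact hα1 (Cfsg.Agent.Lib.Helper4.SL2Rep.eq_one_of_pow_coprime
      (Cfsg.Agent.Lib.Helper4.Offender.Qc_coprime 2 H) h3 hαp)
  have hxH : x ∈ H := Cfsg.Agent.Lib.Helper4.Offender.Qc_le 2 H hxQ
  have hEH : Subgroup.closure ({α, x * α * x⁻¹} : Set (HolG V)) ≤ H := by
    rw [Subgroup.closure_le]
    intro y hy
    rcases hy with h | h
    · rw [SetLike.mem_coe, h]; exact hαH
    · have h' : y = x * α * x⁻¹ := h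
      rw [SetLike.mem_coe, h']
      exact H.mul_mem (H.mul_mem hxH hαH) (H.inv_mem hxH)
  have hf' : Subgroup.closure ({α, x * α * x⁻¹} : Set (HolG V)) ⊓
      Subgroup.centralizer ((VV V : Subgroup (HolG V)) : Set (HolG V)) = ⊥ := by
    rw [eq_bot_iff, ← hf]
    exact inf_le_inf_right _ hEH
  obtain ⟨υ₁, υ₂, hυ₁, hυ₂, hυ₁1, hυne, r1, r2, r3, r4⟩ :=
    core613e (p := 2) rfl (VV V) (Cfsg.Agent.Lib.Helper4.Offender.Qc 2 H) hVV.1 hVV.2 α x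
      (hHV hαH) (hHV hxH) hf' hαp hxα (by rw [← hAz]; exact hcW) hxQ
      (fun q hq => Cfsg.Agent.Lib.Helper4.Offender.Qc_conj 2 H hαH hq)
      (Cfsg.Agent.Lib.Helper4.Offender.Qc_coprime 2 H)
  obtain ⟨a, haA, rfl⟩ : ∃ a ∈ A, rho V a = α := hA₀le hαA
  obtain ⟨y, rfl⟩ : ∃ y, rho V y = x := by
    rw [hHdef] at hxH
    exact hxH
  obtain ⟨v₁, rfl⟩ := (mem_VV V).mp hυ₁
  obtain ⟨v₂, rfl⟩ := (mem_VV V).mp hυ₂
  have hb : rho V y * rho V a * (rho V y)⁻¹ = rho V (y * a * y⁻¹) := by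
    rw [map_mul, map_mul, map_inv]
  rw [hb] at r3 r4
  rw [← map_mul] at r2 r4
  refine ⟨a, haA, y, (v₁ : X), v₁.2, (v₂ : X), v₂.2, ?_, ?_, ?_, ?_, ?_, ?_⟩
  · intro h
    apply hυ₁1
    have h1 : v₁ = 1 := Subtype.ext h
    rw [h1, map_one]
  · intro h
    apply hυne
    have h1 : v₁ = v₂ := Subtype.ext h
    rw [h1]
  · exact conj_eq_of_inl V r1
  · exact conj_eq_of_inl V r2
  · exact conj_eq_of_inl V r3
  · exact conj_eq_of_inl V r4

end Cfsg.Agent.Lib.Helper4.HolS4
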